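import Mathlib

/-!
# Two classes of maximal subgroups: the Sylow orbit congruence
-/

namespace CF.Adn

open MulAction Subgroup
open scoped Pointwise

variable {G : Type*} [Group G] [Finite G] {Ω : Type*} [MulAction G Ω]

/-- A Sylow subgroup whose normaliser fixes a point fixes only that point. -/
theorem uniq [IsPretransitive G Ω] {p : ℕ} [Fact p.Prime] (P : Sylow p G) {γ α : Ω}
    (h : normalizer ((P : Subgroup G) : Set G) ≤ stabilizer G γ)
    (hα : (P : Subgroup G) ≤ stabilizer G α) : α = γ := by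
  obtain ⟨g, rfl⟩ := exists_smul_eq G γ α
  have h1 : (P : Subgroup G) ≤ stabilizer G γ := le_normalizer.trans h
  have h2 : ((g⁻¹ • P : Sylow p G) : Subgroup G) ≤ stabilizer G γ := by
    intro x hx
    rw [Sylow.coe_subgroup_smul, mem_pointwise_smul_iff_inv_smul_mem] at hx
    have := hα hx
    simp only [map_inv, inv_inv, MulAut.smul_def, MulAut.conj_apply, mem_stabilizer_iff,
      mul_smul, inv_smul_smul, smul_left_cancel_iff] at this
    exact this
  obtain ⟨m, hm⟩ := exists_smul_eq (stabilizer G γ) ((g⁻¹ • P).subtype h2) (P.subtype h1)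
  rw [Sylow.smul_subtype] at hm
  have hm' := Sylow.subtype_injective hm
  have h3 : ((m : G) * g⁻¹) • P = P := by rw [mul_smul]; exact hm'
  have h4 := h (Sylow.smul_eq_iff_mem_normalizer.mp h3)
  have h5 : g⁻¹ ∈ stabilizer G γ := by
    have := (stabilizer G γ).mul_mem ((stabilizer G γ).inv_mem m.2) h4
    simpa using this
  exact (stabilizer G γ).inv_mem_iff.mp h5

/-- Counting: one fixed point, all other orbits of length divisible by `d`. -/
theorem dvd_pred {H : Type*} [Group H] [MulAction H Ω] [Finite Ω] (γ : Ω) (hγ : ∀ h : H, h • γ = γ)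
    (d : ℕ) (hd : ∀ ω, ω ≠ γ → d ∣ Nat.card (orbit H ω)) : d ∣ Nat.card Ω - 1 := by
  classical
  have := Fintype.ofFinite Ω
  have e1 : Nat.card Ω - 1 = (Finset.univ.erase γ).card := by
    rw [Finset.card_erase_of_mem (Finset.mem_univ _), Finset.card_univ, Nat.card_eq_fintype_card]
  rw [e1, Finset.card_eq_sum_card_image (fun x => (Quotient.mk'' x : Quotient (orbitRel H Ω)))]
  refine Finset.dvd_sum fun q hq => ?_
  obtain ⟨x, hx, rfl⟩ := Finset.mem_image.mp hq
  have hx' : x ≠ γ := Finset.ne_of_mem_erase hx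
  have e2 : (Finset.filter (fun a => (Quotient.mk'' a : Quotient (orbitRel H Ω)) = Quotient.mk'' x)
      (Finset.univ.erase γ) : Set Ω) = orbit H x := by
    ext y
    simp only [Finset.coe_filter, Finset.mem_erase, Finset.mem_univ, and_true, Set.mem_ofPred_eq,
      Quotient.eq'', orbitRel_apply]
    refine ⟨fun h => h.2, fun h => ⟨?_, h⟩⟩
    rintro rfl
    obtain ⟨g, hg⟩ := h
    apply hx'
    have : g⁻¹ • (g • x) = g⁻¹ • y := congrArg _ hg
    rw [inv_smul_smul, hγ] at this
    exact this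
  have := hd x hx'
  rw [← e2, Nat.card_coe_set_eq, Set.ncard_coe_finset] at this
  exact this

/-- The hypothesis: no normal `p`-subgroup. -/
def NoP (G : Type*) [Group G] : Prop :=
  ∀ p : ℕ, p.Prime → ∀ R : Subgroup G, IsPGroup p R → R ≠ ⊥ → normalizer (R : Set G) ≠ ⊤

theorem two [IsPretransitive G Ω] [Finite Ω] (hO : NoP G) (n : ℕ)
    (hall : ∀ K : Subgroup G, K ≠ ⊤ → (∃ ω : Ω, K ≤ stabilizer G ω) ∨ Nat.card K ∣ n)
    {p : ℕ} [hp : Fact p.Prime] (hΩ : ¬ p ∣ Nat.card Ω) (R : Subgroup G) :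
    IsPGroup p R → ∀ α β : Ω, α ≠ β → R ≤ stabilizer G α → R ≤ stabilizer G β → Nat.card R ∣ n := by
  induction R using WellFoundedGT.induction with
  | _ R ih =>
  intro hR α β hne hα hβ
  by_cases hb : R = ⊥
  · subst hb; simp
  rcases hall _ (hO p hp.out R hR hb) with ⟨γ, hγ⟩ | h
  swap
  · exact (card_dvd_of_le le_normalizer).trans h
  have key : ∀ α : Ω, α ≠ γ → R ≤ stabilizer G α → Nat.card R ∣ n := by
    intro α hne hα
    obtain ⟨S, hS⟩ := (hR.comap_subtype (K := stabilizer G α)).exists_le_sylow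
    have hS1 : IsPGroup p ((S : Subgroup (stabilizer G α)).map (stabilizer G α).subtype) :=
      S.isPGroup'.map _
    have hS2 : ¬ p ∣ ((S : Subgroup (stabilizer G α)).map (stabilizer G α).subtype).index := by
      rw [index_map_subtype, index_stabilizer_of_transitive]
      intro h
      rcases (Nat.Prime.dvd_mul hp.out).mp h with h | h
      · exact S.not_dvd_index h
      · exact hΩ h
    set S' := hS1.toSylow hS2 with hS'
    have hc : (S' : Subgroup G) = (S : Subgroup (stabilizer G α)).map (stabilizer G α).subtype :=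
      rfl
    have hRS : R ≤ (S' : Subgroup G) := by
      intro x hx
      rw [hc]
      exact ⟨⟨x, hα hx⟩, hS hx, rfl⟩
    have hSα : (S' : Subgroup G) ≤ stabilizer G α := by
      rw [hc]; exact map_subtype_le _
    by_cases he : R = (S' : Subgroup G)
    · exact absurd (uniq S' (he ▸ hγ) hSα) hne
    have hnil : Group.IsNilpotent (S' : Subgroup G) := S'.isPGroup'.isNilpotent
    have hlt : R.subgroupOf (S' : Subgroup G) < ⊤ := by
      rw [lt_top_iff_ne_top, Ne, subgroupOf_eq_top]
      exact fun h => he (le_antisymm hRS h)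
    have hn := Group.normalizerCondition_of_isNilpotent _ hlt
    obtain ⟨x, hx1, hx2⟩ := SetLike.exists_of_lt hn
    rw [← subgroupOf_normalizer_eq hRS] at hx1
    have hlt' : R < (S' : Subgroup G) ⊓ normalizer (R : Set G) := by
      refine lt_of_le_of_ne (le_inf hRS le_normalizer) fun h => hx2 ?_
      rw [mem_subgroupOf, h]
      exact ⟨x.2, hx1⟩
    exact (card_dvd_of_le hlt'.le).trans (ih _ hlt' (S'.isPGroup'.to_le inf_le_left) α γ hne
      (inf_le_left.trans hSα) (inf_le_right.trans hγ))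
  by_cases h : α = γ
  · exact key β (h ▸ hne.symm) hβ
  · exact key α h hα

theorem core [IsPretransitive G Ω] [Finite Ω] (hO : NoP G) (n i : ℕ) (hni : n * i = Nat.card G)
    (hall : ∀ K : Subgroup G, K ≠ ⊤ → (∃ ω : Ω, K ≤ stabilizer G ω) ∨ Nat.card K ∣ n) :
    i ∣ Nat.card Ω - 1 := by
  rw [Nat.dvd_iff_prime_pow_dvd_dvd]
  intro p a hp ha
  rcases Nat.eq_zero_or_pos a with rfl | ha0
  · simp
  have : Fact p.Prime := ⟨hp⟩
  obtain ⟨P⟩ : Nonempty (Sylow p G) := inferInstance
  have hG0 : Nat.card G ≠ 0 := Nat.card_pos.ne'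
  have hP := P.card_eq_multiplicity
  have pw : ∀ r, p ^ r ∣ n → r + a ≤ (Nat.card G).factorization p := by
    intro r hr
    rw [← hp.pow_dvd_iff_le_factorization hG0, pow_add, ← hni]
    exact mul_dvd_mul hr ha
  have hb : (P : Subgroup G) ≠ ⊥ := by
    intro h
    rw [h, card_bot] at hP
    have := pw 0 (by simp)
    have h2 := (Nat.pow_eq_one.mp hP.symm).resolve_left hp.ne_one
    omega
  rcases hall _ (hO p hp _ P.isPGroup' hb) with ⟨γ, hγ⟩ | h
  swap
  · have := pw _ (hP ▸ (card_dvd_of_le le_normalizer).trans h)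
    omega
  have hPγ : (P : Subgroup G) ≤ stabilizer G γ := le_normalizer.trans hγ
  have hΩ : ¬ p ∣ Nat.card Ω := by
    rw [← index_stabilizer_of_transitive G γ]
    exact fun h => P.not_dvd_index (h.trans (index_dvd_of_le hPγ))
  refine dvd_pred (H := (P : Subgroup G)) γ (fun h => hPγ h.2) _ fun ω hω => ?_
  have h1 := two hO n hall hΩ ((P : Subgroup G) ⊓ stabilizer G ω) (P.isPGroup'.to_le inf_le_left)
    ω γ hω inf_le_right (inf_le_left.trans hPγ)
  have h2 : stabilizer (P : Subgroup G) ω =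
      ((P : Subgroup G) ⊓ stabilizer G ω).subgroupOf (P : Subgroup G) := by
    ext x; simp [mem_subgroupOf, mem_stabilizer_iff, Subgroup.smul_def]
  have h3 : Nat.card (stabilizer (P : Subgroup G) ω) =
      Nat.card ((P : Subgroup G) ⊓ stabilizer G ω : Subgroup G) := by
    rw [h2]; exact Nat.card_congr (subgroupOfEquivOfLe inf_le_left).toEquiv
  have h4 := (stabilizer (P : Subgroup G) ω).card_mul_index
  rw [index_stabilizer, h3, hP] at h4
  obtain ⟨r, hr⟩ := (P.isPGroup'.to_le
    (inf_le_left : (P : Subgroup G) ⊓ stabilizer G ω ≤ _)).exists_card_eq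
  rw [hr] at h1 h4
  have h5 := pw r h1
  obtain ⟨c, hc⟩ := Nat.exists_eq_add_of_le h5
  rw [hc, add_assoc, pow_add] at h4
  have h6 := Nat.eq_of_mul_eq_mul_left (pow_pos hp.pos r) h4
  rw [Nat.card_coe_set_eq, h6, pow_add]
  exact dvd_mul_right _ _

/-- Every proper subgroup lies in a conjugate of one of two proper subgroups. -/
def Cov (G : Type*) [Group G] : Prop :=
  ∃ M N : Subgroup G, M ≠ ⊤ ∧ N ≠ ⊤ ∧
    ∀ K : Subgroup G, K ≠ ⊤ → ∃ g : G, K ≤ MulAut.conj g • M ∨ K ≤ MulAut.conj g • N

omit [Finite G] in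
theorem card_cj (g : G) (M : Subgroup G) :
    Nat.card (MulAut.conj g • M : Subgroup G) = Nat.card M :=
  Nat.card_congr (Subgroup.equivSMul (MulAut.conj g) M).symm.toEquiv

theorem half (hO : NoP G) (M N : Subgroup G)
    (h : ∀ K : Subgroup G, K ≠ ⊤ → ∃ g : G, K ≤ MulAut.conj g • M ∨ K ≤ MulAut.conj g • N) :
    N.index ∣ M.index - 1 := by
  refine core (Ω := G ⧸ M) hO (Nat.card N) _ N.card_mul_index fun K hK => ?_
  obtain ⟨g, h | h⟩ := h K hK
  · refine Or.inl ⟨(g : G ⧸ M), fun x hx => ?_⟩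
    have := h hx
    rw [mem_pointwise_smul_iff_inv_smul_mem] at this
    rw [mem_stabilizer_iff]
    change ((x * g : G) : G ⧸ M) = g
    rw [eq_comm, QuotientGroup.eq]
    simpa [mul_assoc] using this
  · exact Or.inr (card_cj g N ▸ card_dvd_of_le h)

theorem not_cov (hO : NoP G) : ¬ Cov G := by
  rintro ⟨M, N, hM, hN, h⟩
  have h1 := half hO M N h
  have h2 := half hO N M fun K hK => (h K hK).imp fun _ h => h.symm
  have m1 := M.one_lt_index_of_ne_top hM
  have n1 := N.one_lt_index_of_ne_top hN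
  have := Nat.le_of_dvd (by omega) h1
  have := Nat.le_of_dvd (by omega) h2
  omega

omit [Finite G] in
theorem cov_quot (R : Subgroup G) [R.Normal] [Nontrivial (G ⧸ R)] (h : Cov G) : Cov (G ⧸ R) := by
  classical
  obtain ⟨M, N, hM, hN, h⟩ := h
  let f : Subgroup G → Subgroup (G ⧸ R) := fun M =>
    if R ≤ M then M.map (QuotientGroup.mk' R) else ⊥
  have f1 : ∀ M : Subgroup G, M ≠ ⊤ → f M ≠ ⊤ := by
    intro M hM
    by_cases hR : R ≤ M
    · simp only [f, if_pos hR]
      intro h
      apply hM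
      have := congrArg (comap (QuotientGroup.mk' R)) h
      rwa [comap_map_eq, QuotientGroup.ker_mk', sup_eq_left.mpr hR, comap_top] at this
    · simp only [f, if_neg hR]
      exact bot_ne_top
  have f2 : ∀ (M : Subgroup G) (K : Subgroup (G ⧸ R)) (g : G),
      K.comap (QuotientGroup.mk' R) ≤ MulAut.conj g • M → K ≤ MulAut.conj (g : G ⧸ R) • f M := by
    intro M K g hK
    have hR : R ≤ M := by
      intro r hr
      have h1 : g * r * g⁻¹ ∈ K.comap (QuotientGroup.mk' R) := by
        rw [mem_comap, QuotientGroup.mk'_apply,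
          (QuotientGroup.eq_one_iff _).mpr (Normal.conj_mem inferInstance r hr g)]
        exact K.one_mem
      have := hK h1
      rw [mem_pointwise_smul_iff_inv_smul_mem] at this
      simpa [mul_assoc] using this
    simp only [f, if_pos hR]
    intro x hx
    obtain ⟨y, rfl⟩ := QuotientGroup.mk'_surjective R x
    have := hK hx
    rw [mem_pointwise_smul_iff_inv_smul_mem] at this ⊢
    exact ⟨_, this, by simp⟩
  refine ⟨f M, f N, f1 M hM, f1 N hN, fun K hK => ?_⟩
  have hK' : K.comap (QuotientGroup.mk' R) ≠ ⊤ := by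
    intro h
    apply hK
    have := congrArg (map (QuotientGroup.mk' R)) h
    rwa [map_comap_eq_self_of_surjective (QuotientGroup.mk'_surjective R),
      map_top_of_surjective _ (QuotientGroup.mk'_surjective R)] at this
  obtain ⟨g, h | h⟩ := h _ hK'
  · exact ⟨g, Or.inl (f2 M K g h)⟩
  · exact ⟨g, Or.inr (f2 N K g h)⟩

universe u

theorem solv_aux (n : ℕ) : ∀ (G : Type u) [Group G] [Finite G], Nat.card G = n → Cov G →
    Group.IsSolvable G := by
  induction n using Nat.strong_induction_on with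
  | _ n ih =>
  intro G _ _ hn h
  by_cases hO : NoP G
  · exact absurd h (not_cov hO)
  simp only [NoP, not_forall, not_not] at hO
  obtain ⟨p, hp, R, hR, hb, hN⟩ := hO
  have : Fact p.Prime := ⟨hp⟩
  have : R.Normal := normalizer_eq_top_iff.mp hN
  have hnil : Group.IsNilpotent R := hR.isNilpotent
  have : Group.IsSolvable (G ⧸ R) := by
    rcases subsingleton_or_nontrivial (G ⧸ R) with h1 | h1
    · infer_instance
    refine ih _ ?_ (G ⧸ R) rfl (cov_quot R h)
    rw [← hn, ← R.card_mul_index, ← R.index_eq_card]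
    have := (R.one_lt_card_iff_ne_bot).mpr hb
    have := Nat.pos_of_ne_zero (R.index_ne_zero_of_finite)
    nlinarith
  exact Group.isSolvable_of_ker_le_range R.subtype (QuotientGroup.mk' R) (by simp)

theorem solv (h : Cov G) : Group.IsSolvable G := solv_aux _ G rfl h

end CF.Adn
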